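import Cfsg.Agent.H91.DihedralFour.Swap

/-!
Elementary abelian sections have order at most sixteen.
-/

set_option linter.style.haveILetI false
set_option linter.unusedVariables false
set_option linter.unusedSectionVars false

namespace Cfsg.Agent.H91.DihedralFour

variable {S : Type*} [Group S] [Finite S] {T B : Subgroup S}

/-- The normalizer of the normalizer is everything, and outside elements interchange `T` and
`conjSub g₀ T`. -/
theorem Data.swap_facts (d : Data T B) {g₀ : S} {N : Subgroup S}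
    (h : Swap T B (conjSub g₀ T) N) (hg : g₀ ∈ Subgroup.normalizer (N : Set S)) (hgN : g₀ ∉ N) :
    (∀ s, s ∉ N → conjSub s T = conjSub g₀ T ∧ conjSub s (conjSub g₀ T) = T) ∧
      (∀ x y : S, x ∉ N → y ∉ N → x⁻¹ * y ∈ N) := by
  haveI : Fact (Nat.Prime 2) := ⟨Nat.prime_two⟩
  haveI := d.two.isNilpotent
  set T' := conjSub g₀ T with hT'
  have hsq : ∀ g : S, ∀ e ∈ conjSub g T, e * e = 1 := by
    rintro g _ ⟨a, ha, rfl⟩
    rw [← map_mul, d.sq a ha, map_one]
  have hmemN : ∀ g : S, conjSub g T = T ↔ g ∈ N := fun g => by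
    rw [h.hN]; exact conjSub_eq_self
  have hin : ∀ g ∈ Subgroup.normalizer (N : Set S), g ∉ N → conjSub g T = T' := by
    intro g hg' hgN'
    refine (h.eq_or ?_ (hsq g) (by rw [card_conjSub, d.card_T])).resolve_left
      (fun e => hgN' ((hmemN g).mp e))
    rintro _ ⟨t, ht, rfl⟩
    exact (Subgroup.mem_normalizer_iff.mp hg' t).mp (h.le ht)
  have hswap : ∀ g ∈ Subgroup.normalizer (N : Set S), g ∉ N → conjSub g T' = T := by
    intro g hg' hgN'
    have he : conjSub g T' = conjSub (g * g₀) T := conjSub_mul _ _ _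
    rw [he]
    by_contra hne
    have hne' : g * g₀ ∉ N := fun hm => hne ((hmemN _).mpr hm)
    have h1 := hin _ (mul_mem hg' hg) hne'
    have h2 : conjSub g T' = conjSub g T := (he.trans h1).trans (hin g hg' hgN').symm
    exact h.ne (Subgroup.map_injective (MulAut.conj g).injective h2)
  have hquot : ∀ x ∈ Subgroup.normalizer (N : Set S), ∀ y ∈ Subgroup.normalizer (N : Set S),
      x ∉ N → y ∉ N → x⁻¹ * y ∈ N := by
    intro x hx y hy hxN hyN
    rw [← hmemN, ← conjSub_mul, hin y hy hyN, ← hin x hx hxN, conjSub_mul, inv_mul_cancel,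
      conjSub_eq_self]
    exact one_mem _
  have htop : Subgroup.normalizer (N : Set S) = ⊤ := by
    by_contra hne
    set M := Subgroup.normalizer (N : Set S) with hM
    have hNM : N ≤ M := Subgroup.le_normalizer
    obtain ⟨g, hgM, hgM'⟩ := SetLike.exists_of_lt
      (Group.normalizerCondition_of_isNilpotent M (lt_top_iff_ne_top.mpr hne))
    have hE : conjSub g T ≤ M := by
      rintro _ ⟨t, ht, rfl⟩
      exact (Subgroup.mem_normalizer_iff.mp hgM t).mp (hNM (h.le ht))
    by_cases hle : conjSub g T ≤ N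
    · rcases h.eq_or hle (hsq g) (by rw [card_conjSub, d.card_T]) with e | e
      · exact hgM' (hNM ((hmemN g).mp e))
      · have e2 : g₀⁻¹ * g ∈ N := by
          rw [← hmemN, ← conjSub_mul, e, conjSub_mul, inv_mul_cancel, conjSub_eq_self]
          exact one_mem _
        refine hgM' ?_
        have : g = g₀ * (g₀⁻¹ * g) := (mul_inv_cancel_left _ _).symm
        rw [this]
        exact mul_mem hg (hNM e2)
    · obtain ⟨s, hs, hsN⟩ := SetLike.not_le_iff_exists.mp hle
      have hcomm : ∀ a ∈ conjSub g T, ∀ b ∈ conjSub g T, a * b = b * a := by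
        rintro _ ⟨a, ha, rfl⟩ _ ⟨b, hb, rfl⟩
        rw [← map_mul, d.comm a ha b hb, map_mul]
      have hfix : ∀ y ∈ conjSub g T, s * y * s⁻¹ = y := fun y hy => by
        rw [hcomm s hs y hy, mul_inv_cancel_right]
      have hY : conjSub g T ⊓ N ≤ T ⊓ T' := by
        rintro y ⟨hy, hyN⟩
        rcases h.mem_or hyN (hsq g y hy) with hyT | hyT
        · refine ⟨hyT, ?_⟩
          rw [← hin s (hE hs) hsN, ← hfix y hy]
          exact ⟨y, hyT, rfl⟩
        · refine ⟨?_, hyT⟩
          rw [← hswap s (hE hs) hsN, ← hfix y hy]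
          exact ⟨y, hyT, rfl⟩
      have h1 := card_le_two_mul (X := conjSub g T) (N := N)
        (fun x hx y hy hxN hyN => hquot x (hE hx) y (hE hy) hxN hyN)
      have h2 := Subgroup.card_le_of_le hY
      have h3 := h.card_inf
      rw [card_conjSub, d.card_T] at h1
      omega
  have hall : ∀ x : S, x ∈ Subgroup.normalizer (N : Set S) := fun x => htop ▸ Subgroup.mem_top x
  exact ⟨fun s hs => ⟨hin s (hall s) hs, hswap s (hall s) hs⟩,
    fun x y => hquot x (hall x) y (hall y)⟩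

theorem Data.card_le (d : Data T B) {P : Subgroup S} {A : Type*} [Group A] (f : P →* A)
    (hf : Function.Surjective f) (hA : ∀ a : A, a * a = 1) : Nat.card A ≤ 16 := by
  classical
  haveI : Fact (Nat.Prime 2) := ⟨Nat.prime_two⟩
  haveI : Finite A := Finite.of_surjective f hf
  by_contra hgt
  set K : Subgroup S := f.ker.map P.subtype with hKdef
  have hcard : Nat.card P = Nat.card K * Nat.card A := by
    rw [← Subgroup.card_mul_index f.ker, Subgroup.index_ker, MonoidHom.range_eq_top.mpr hf,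
      Subgroup.card_top, hKdef, Subgroup.card_map_of_injective P.subtype_injective]
  have h32 : 32 ≤ Nat.card A := by
    obtain ⟨k, hk⟩ := ((d.two.to_subgroup P).of_surjective f hf).exists_card_eq
    have hk5 : 5 ≤ k := by
      by_contra hh
      have : 2 ^ k ≤ 2 ^ 4 := Nat.pow_le_pow_right (by norm_num) (by omega)
      omega
    calc 32 = 2 ^ 5 := rfl
      _ ≤ Nat.card A := hk ▸ Nat.pow_le_pow_right (by norm_num) hk5
  have hAc : ∀ a b : A, a * b * a⁻¹ * b⁻¹ = 1 := fun a b => by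
    rw [inv_eq_of_mul_eq_one_right (hA a), inv_eq_of_mul_eq_one_right (hA b), mul_assoc (a * b),
      hA]
  have hKc : ∀ a ∈ P, ∀ b ∈ P, a * b * a⁻¹ * b⁻¹ ∈ K := fun a ha b hb =>
    ⟨⟨a, ha⟩ * ⟨b, hb⟩ * ⟨a, ha⟩⁻¹ * ⟨b, hb⟩⁻¹,
      (by simp only [SetLike.mem_coe, MonoidHom.mem_ker, map_mul, map_inv]; exact hAc _ _), rfl⟩
  have hKP : K ≤ P := Subgroup.map_subtype_le _
  have hK1 : 1 ≤ Nat.card K := Nat.card_pos
  have h32K : 32 * Nat.card K ≤ Nat.card P := by
    rw [hcard, mul_comm 32]; exact Nat.mul_le_mul_left _ h32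
  by_cases hne : Subgroup.normalizer (T : Set S) = ⊤
  · have hPT : ¬ P ≤ T := fun hle => by
      have := Subgroup.card_le_of_le hle; have := d.card_T; omega
    have := d.card_le_of_le_normalizer (hne ▸ le_top) hPT hKc
    omega
  obtain ⟨g₀, h, hg₀, hg₀N⟩ := d.exists_swap hne
  set N := Subgroup.normalizer (T : Set S) with hN
  set T' := conjSub g₀ T with hT'
  obtain ⟨hsw', hquot⟩ := d.swap_facts h hg₀ hg₀N
  have hsw : ∀ s, s ∉ N → conjSub s T = T' ∧ conjSub s T' = T := hsw'
  have hP2 : Nat.card P ≤ 2 * Nat.card ↥(P ⊓ N) :=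
    card_le_two_mul fun x _ y _ => hquot x y
  -- `P` is not inside `N`
  obtain ⟨s, hsP, hsN⟩ := SetLike.not_le_iff_exists.mp (show ¬ P ≤ N from fun hle => by
    have hPT : ¬ P ≤ T := fun hle' => by
      have := Subgroup.card_le_of_le hle'; have := d.card_T; omega
    have := d.card_le_of_le_normalizer hle hPT hKc
    omega)
  have h16 : 16 * Nat.card K ≤ Nat.card ↥(P ⊓ N) := by omega
  have hW : Nat.card ↥(P ⊓ N) ≤ 4 * Nat.card ↥(T ⊓ (P ⊓ N)) := by
    have e1 := card_inf_mul_relIndex T (P ⊓ N)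
    have e2 : T.relIndex (P ⊓ N) ≤ 4 := le_trans
      (Subgroup.relIndex_le_of_le_right inf_le_right Subgroup.index_ne_zero_of_finite)
      d.relIndex_le_four
    rw [← e1, mul_comm 4]
    exact Nat.mul_le_mul_left _ e2
  have hF4 := h.card_inf
  have hconj : ∀ y ∈ P, s * y * s⁻¹ ∈ P := fun y hy => mul_mem (mul_mem hsP hy) (inv_mem hsP)
  by_cases hsub : T ⊓ (P ⊓ N) ≤ T'
  · -- `P` is elementary abelian
    have hle : T ⊓ (P ⊓ N) ≤ T ⊓ T' := le_inf inf_le_left hsub
    have h4 := Subgroup.card_le_of_le hle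
    have hK : Nat.card K = 1 := by omega
    have hbot : K = ⊥ := Subgroup.card_eq_one.mp hK
    have hker : f.ker = ⊥ := by
      rw [hKdef] at hbot
      exact (Subgroup.map_eq_bot_iff_of_injective _ P.subtype_injective).mp hbot
    have hinj : Function.Injective f := (MonoidHom.ker_eq_bot_iff f).mp hker
    have hsq : ∀ y ∈ P, y * y = 1 := fun y hy => by
      have := hinj (show f (⟨y, hy⟩ * ⟨y, hy⟩) = f 1 by rw [map_mul, map_one]; exact hA _)
      exact congrArg Subtype.val this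
    have hF : P ⊓ N ≤ T ⊓ T' := by
      rintro y ⟨hyP, hyN⟩
      rcases h.mem_or hyN (hsq y hyP) with hy | hy
      · exact hle ⟨hy, hyP, hyN⟩
      · refine ⟨?_, hy⟩
        have hc := hKc s hsP y hyP
        rw [hbot, Subgroup.mem_bot, mul_inv_eq_one] at hc
        rw [← (hsw s hsN).2, ← hc]
        exact ⟨y, hy, rfl⟩
    have := Subgroup.card_le_of_le hF
    omega
  · obtain ⟨a, ⟨haT, haP, haN⟩, haT'⟩ := SetLike.not_le_iff_exists.mp hsub
    -- a nontrivial element of `K ⊓ (T ⊓ T')`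
    have hu' : s * a * s⁻¹ ∈ T' := by rw [← (hsw s hsN).1]; exact ⟨a, haT, rfl⟩
    set u := s * a * s⁻¹ with hu
    have huN : u ∈ N := h.le' hu'
    set c := a * u * a⁻¹ * u⁻¹ with hc
    have hcK : c ∈ K := hKc a haP u (hconj a haP)
    have hcT : c ∈ T := by
      have : c = a * (u * a⁻¹ * u⁻¹) := by simp [hc, mul_assoc]
      rw [this]
      exact mul_mem haT ((Subgroup.mem_normalizer_iff.mp huN _).mp (inv_mem haT))
    have hcT' : c ∈ T' :=
      mul_mem ((Subgroup.mem_normalizer_iff.mp (h.norm' (h.le haT)) _).mp hu') (inv_mem hu')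
    have hcne : c ≠ 1 := by
      intro h1
      have h2 : a * u = u * a := by
        rw [hc, mul_inv_eq_one, mul_inv_eq_iff_eq_mul] at h1
        exact h1
      have huT : u ∈ T := h.mem_of_commute_left haT haT' huN h2
      have : a ∈ conjSub s⁻¹ T := by
        refine mem_conjSub.mpr ?_
        rw [inv_inv]
        exact huT
      rw [(hsw s⁻¹ (fun hm => hsN (by simpa using inv_mem hm))).1] at this
      exact haT' this
    have hR : 2 ≤ Nat.card ↥(K ⊓ (T ⊓ T')) := by
      by_contra hlt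
      have h1 : Nat.card ↥(K ⊓ (T ⊓ T')) = 1 := by
        have : 0 < Nat.card ↥(K ⊓ (T ⊓ T')) := Nat.card_pos
        omega
      have := Subgroup.card_eq_one.mp h1 ▸ (show c ∈ K ⊓ (T ⊓ T') from ⟨hcK, hcT, hcT'⟩)
      exact hcne this
    have key := card_mul_card_le (T ⊓ (P ⊓ N)) K (T ⊓ T') s ((T ⊓ (P ⊓ N)) ⊓ T')
      (K ⊓ (T ⊓ T')) inf_le_left inf_le_left inf_le_right (fun w hw => hKc w hw.2.1 s hsP)
      (fun w hw w' hw' hcc => by
        refine ⟨(T ⊓ (P ⊓ N)).mul_mem ((T ⊓ (P ⊓ N)).inv_mem hw) hw', ?_⟩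
        have e : ∀ z ∈ T, s * z⁻¹ * s⁻¹ ∈ T' := fun z hz => by
          rw [← (hsw s hsN).1]; exact ⟨z⁻¹, inv_mem hz, rfl⟩
        have e1 : w⁻¹ * w' = (s * w⁻¹ * s⁻¹) *
            ((w * s * w⁻¹ * s⁻¹)⁻¹ * (w' * s * w'⁻¹ * s⁻¹)) * (s * w'⁻¹ * s⁻¹)⁻¹ := by
          simp [mul_assoc]
        rw [e1]
        exact T'.mul_mem (T'.mul_mem (e w hw.1) hcc.2) (T'.inv_mem (e w' hw'.1)))
    have hE : Nat.card ↥((T ⊓ (P ⊓ N)) ⊓ T') ≤ 4 :=
      le_trans (Subgroup.card_le_of_le (inf_le_inf_right _ inf_le_left)) hF4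
    have h5 : Nat.card ↥(T ⊓ (P ⊓ N)) * 2 ≤ Nat.card K * 4 :=
      le_trans (Nat.mul_le_mul_left _ hR) (key.trans (Nat.mul_le_mul_left _ hE))
    omega

end Cfsg.Agent.H91.DihedralFour
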