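import Cfsg.Agent.H91.DihedralFour.Count

/-!
If a subgroup `T` of a 2-group contains a central (in `T`) four-subgroup whose non-identity
elements have centralizer inside `T`, then either `T` is everything or `T` has centre of order
at least 16.
-/

set_option linter.style.haveILetI false

namespace Cfsg.Agent.H91.DihedralFour

variable {S : Type*} [Group S] [Finite S]

/-- An element normalising `T` with square in `T`, outside `T`. -/
theorem exists_sq_mem (hS : IsPGroup 2 S) {T : Subgroup S} (hT : T ≠ ⊤) :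
    ∃ g ∈ Subgroup.normalizer (T : Set S), g ∉ T ∧ g * g ∈ T := by
  haveI : Fact (Nat.Prime 2) := ⟨Nat.prime_two⟩
  haveI := hS.isNilpotent
  have hlt := Group.normalizerCondition_of_isNilpotent T (lt_top_iff_ne_top.mpr hT)
  obtain ⟨g, hgN, hgT⟩ := SetLike.exists_of_lt hlt
  obtain ⟨n, hn⟩ := hS g
  have hmem : ∃ k, g ^ 2 ^ k ∈ T := ⟨n, by rw [hn]; exact T.one_mem⟩
  classical
  have hk0 : Nat.find hmem ≠ 0 := by
    intro h
    have := Nat.find_spec hmem
    rw [h, pow_zero, pow_one] at this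
    exact hgT this
  obtain ⟨k, hk⟩ := Nat.exists_eq_succ_of_ne_zero hk0
  refine ⟨g ^ 2 ^ k, Subgroup.pow_mem _ hgN _, Nat.find_min hmem (by omega), ?_⟩
  have := Nat.find_spec hmem
  rw [hk] at this
  rwa [← pow_add, ← two_mul, mul_comm, ← pow_succ]

theorem eq_top_of_center_lt (hS : IsPGroup 2 S) {T B : Subgroup S} (hBT : B ≤ T)
    (hB4 : Nat.card B = 4) (hBexp : ∀ b ∈ B, b * b = 1)
    (hBZ : ∀ b ∈ B, ∀ t ∈ T, b * t = t * b)
    (hC : ∀ b ∈ B, b ≠ 1 → Subgroup.centralizer ({b} : Set S) ≤ T)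
    (hZ : Nat.card (Subgroup.center T) < 16) : T = ⊤ := by
  by_contra hne
  obtain ⟨g, hgN, hgT, hg2⟩ := exists_sq_mem hS hne
  have hN : ∀ t, t ∈ T ↔ g * t * g⁻¹ ∈ T := Subgroup.mem_normalizer_iff.mp hgN
  have hfix : ∀ b ∈ B, g * b * g⁻¹ = b → b = 1 := by
    intro b hb h
    by_contra h1
    refine hgT (hC b hb h1 ?_)
    rw [Subgroup.mem_centralizer_iff]
    rintro y rfl
    exact (mul_inv_eq_iff_eq_mul.mp h).symm
  have hcen : ∀ b ∈ B, ∀ t ∈ T, g * b * g⁻¹ * t = t * (g * b * g⁻¹) := by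
    intro b hb t ht
    have h1 : g⁻¹ * t * g ∈ T := by
      rw [hN]; simpa [mul_assoc] using ht
    have h2 := hBZ b hb _ h1
    calc g * b * g⁻¹ * t = g * (b * (g⁻¹ * t * g)) * g⁻¹ := by simp [mul_assoc]
      _ = g * (g⁻¹ * t * g * b) * g⁻¹ := by rw [h2]
      _ = t * (g * b * g⁻¹) := by simp [mul_assoc]
  -- elements of the form `b * (g b g⁻¹)` are fixed by `g`
  have hfixed : ∀ b ∈ B, g * (b * (g * b * g⁻¹)) * g⁻¹ = b * (g * b * g⁻¹) := by
    intro b hb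
    have h1 : g * g * b * (g * g)⁻¹ = b := by
      rw [mul_inv_eq_iff_eq_mul]
      exact (hBZ b hb _ hg2).symm
    have h2 : g * (b * (g * b * g⁻¹)) * g⁻¹ = g * b * g⁻¹ * (g * g * b * (g * g)⁻¹) := by
      simp [mul_assoc]
    rw [h2, h1]
    exact hcen b hb b (hBT hb)
  have hmem : ∀ b ∈ B, ∀ c ∈ B, (b * (c * (g * c * g⁻¹)) ∈ T) := fun b hb c hc =>
    mul_mem (hBT hb) (mul_mem (hBT hc) ((hN c).mp (hBT hc)))
  have hcenT : ∀ b (hb : b ∈ B) c (hc : c ∈ B),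
      (⟨_, hmem b hb c hc⟩ : T) ∈ Subgroup.center T := by
    intro b hb c hc
    rw [Subgroup.mem_center_iff]
    rintro ⟨t, ht⟩
    have h3 : Commute (b * (c * (g * c * g⁻¹))) t :=
      Commute.mul_left (hBZ b hb t ht) (Commute.mul_left (hBZ c hc t ht) (hcen c hc t ht))
    exact Subtype.ext h3.eq.symm
  refine absurd ?_ (not_le.mpr hZ)
  have h16 : Nat.card (B × B) = 16 := by rw [Nat.card_prod, hB4]
  rw [← h16]
  refine Nat.card_le_card_of_injective
    (fun p : B × B => (⟨⟨_, hmem _ p.1.2 _ p.2.2⟩, hcenT _ p.1.2 _ p.2.2⟩ : Subgroup.center T)) ?_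
  rintro ⟨⟨b, hb⟩, ⟨c, hc⟩⟩ ⟨⟨b', hb'⟩, ⟨c', hc'⟩⟩ h
  have h' : b * (c * (g * c * g⁻¹)) = b' * (c' * (g * c' * g⁻¹)) :=
    congrArg (fun z : Subgroup.center T => ((z : T) : S)) h
  have hcc : ∀ x ∈ B, ∀ y ∈ B, x * y = y * x := fun x hx y hy => hBZ x hx y (hBT hy)
  have inv : ∀ x ∈ B, x⁻¹ = x := fun x hx => inv_eq_of_mul_eq_one_right (hBexp x hx)
  -- combine `c` and `c'`
  have hd : c' * c ∈ B := mul_mem hc' hc
  have key : b' * b = (c' * c) * (g * (c' * c) * g⁻¹) := by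
    have e1 : g * c * g⁻¹ * (g * c * g⁻¹) = 1 := by
      have : g * c * g⁻¹ * (g * c * g⁻¹) = g * (c * c) * g⁻¹ := by simp [mul_assoc]
      rw [this, hBexp c hc]; simp
    have e2 : b' * b * (c * (g * c * g⁻¹)) = c' * (g * c' * g⁻¹) := by
      rw [mul_assoc, h', ← mul_assoc, hBexp b' hb', one_mul]
    have e3 : Commute (g * c * g⁻¹) c := hcen c hc c (hBT hc)
    have e4 : c * (g * c * g⁻¹) * ((g * c * g⁻¹) * c) = 1 := by
      rw [mul_assoc c, ← mul_assoc (g * c * g⁻¹) (g * c * g⁻¹) c, e1, one_mul, hBexp c hc]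
    calc b' * b = b' * b * (c * (g * c * g⁻¹) * ((g * c * g⁻¹) * c)) := by rw [e4, mul_one]
      _ = b' * b * (c * (g * c * g⁻¹)) * ((g * c * g⁻¹) * c) := (mul_assoc _ _ _).symm
      _ = c' * (g * c' * g⁻¹) * ((g * c * g⁻¹) * c) := by rw [e2]
      _ = c' * ((g * c' * g⁻¹ * (g * c * g⁻¹)) * c) := by simp only [mul_assoc]
      _ = c' * ((g * (c' * c) * g⁻¹) * c) := by simp [mul_assoc]
      _ = c' * (c * (g * (c' * c) * g⁻¹)) := by rw [(hcen _ hd c (hBT hc))]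
      _ = _ := by simp only [mul_assoc]
  have hbb : b' * b = 1 := hfix _ (mul_mem hb' hb) (by rw [key]; exact hfixed _ hd)
  have hb_eq : b = b' := by
    rw [← inv b' hb']; exact eq_inv_of_mul_eq_one_right hbb
  subst hb_eq
  rw [hbb] at key
  have hc1 : c' * c = 1 := hfix _ hd ((eq_inv_of_mul_eq_one_right key.symm).trans (inv _ hd))
  have hc_eq : c = c' := by
    rw [← inv c' hc']; exact eq_inv_of_mul_eq_one_right hc1
  subst hc_eq
  rfl

end Cfsg.Agent.H91.DihedralFour
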