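import Mathlib

/-!
Counting lemmas for a 2-group with a self-centralizing abelian subgroup containing a four-subgroup
whose non-identity elements have centralizer inside it.
-/

namespace Cfsg.Agent.H91.DihedralFour

variable {S : Type*} [Group S]

/-- Conjugation of `T` by `g`. -/
abbrev conjSub (g : S) (T : Subgroup S) : Subgroup S := T.map (MulAut.conj g).toMonoidHom

theorem mem_conjSub {g y : S} {T : Subgroup S} : y ∈ conjSub g T ↔ g⁻¹ * y * g ∈ T := by
  constructor
  · rintro ⟨t, ht, rfl⟩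
    simpa [mul_assoc] using ht
  · intro h
    exact ⟨_, h, by simp [mul_assoc]⟩

theorem card_conjSub (g : S) (T : Subgroup S) : Nat.card (conjSub g T) = Nat.card T :=
  Subgroup.card_map_of_injective (MulAut.conj g).injective

/-- Two-factor injection bound. -/
theorem card_mul_le [Finite S] {X : Subgroup S} (Y Z : Subgroup S) (hY : Y ≤ X) (hZ : Z ≤ X)
    (hd : ∀ a ∈ Y, a ∈ Z → a = 1) : Nat.card Y * Nat.card Z ≤ Nat.card X := by
  rw [← Nat.card_prod]
  refine Nat.card_le_card_of_injective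
    (fun p : Y × Z => (⟨(p.1 : S) * p.2, mul_mem (hY p.1.2) (hZ p.2.2)⟩ : X)) ?_
  rintro ⟨a, b⟩ ⟨a', b'⟩ h
  have h' : (a : S) * b = a' * b' := congrArg Subtype.val h
  have e : (a' : S)⁻¹ * a = b' * (b : S)⁻¹ := by
    rw [eq_mul_inv_iff_mul_eq, mul_assoc, h', ← mul_assoc, inv_mul_cancel, one_mul]
  have e1 := hd _ (mul_mem (inv_mem a'.2) a.2) (by rw [e]; exact mul_mem b'.2 (inv_mem b.2))
  have ha : a = a' := Subtype.ext (inv_mul_eq_one.mp e1).symm
  subst ha
  have hb : (b : S) = b' := mul_left_cancel h'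
  exact Prod.ext rfl (Subtype.ext hb)

/-- The commutator map with a fixed element, read modulo `F`. -/
theorem card_mul_card_le [Finite S] (W K F : Subgroup S) (u : S) (E R : Subgroup S)
    (hE : E ≤ W) (hR : R ≤ K) (hRF : R ≤ F)
    (hK : ∀ w ∈ W, w * u * w⁻¹ * u⁻¹ ∈ K)
    (hfib : ∀ w ∈ W, ∀ w' ∈ W,
      (w * u * w⁻¹ * u⁻¹)⁻¹ * (w' * u * w'⁻¹ * u⁻¹) ∈ F → w⁻¹ * w' ∈ E) :
    Nat.card W * Nat.card R ≤ Nat.card K * Nat.card E := by
  classical
  let E' := E.subgroupOf W
  let c : W → K := fun w => ⟨(w : S) * u * (w : S)⁻¹ * u⁻¹, hK w w.2⟩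
  let φ : (W ⧸ E') × R → K := fun p => c p.1.out * ⟨(p.2 : S), hR p.2.2⟩
  have hφ : Function.Injective φ := by
    rintro ⟨q, r⟩ ⟨q', r'⟩ h
    have h' : (c q.out : S) * r = (c q'.out : S) * r' := congrArg Subtype.val h
    have e : (c q.out : S)⁻¹ * c q'.out ∈ F := by
      have : (c q.out : S)⁻¹ * c q'.out = r * (r' : S)⁻¹ := by
        rw [eq_mul_inv_iff_mul_eq, mul_assoc, ← h', ← mul_assoc, inv_mul_cancel, one_mul]
      rw [this]
      exact mul_mem (hRF r.2) (inv_mem (hRF r'.2))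
    have h2 := hfib _ q.out.2 _ q'.out.2 e
    have hq : q = q' := by
      rw [← QuotientGroup.out_eq' q, ← QuotientGroup.out_eq' q', QuotientGroup.eq,
        Subgroup.mem_subgroupOf]
      exact h2
    subst hq
    exact Prod.ext rfl (Subtype.ext (mul_left_cancel h'))
  have h1 := Nat.card_le_card_of_injective φ hφ
  rw [Nat.card_prod] at h1
  have h2 := Subgroup.card_eq_card_quotient_mul_card_subgroup E'
  rw [h2, Nat.card_congr (Subgroup.subgroupOfEquivOfLe hE).toEquiv]
  calc Nat.card (W ⧸ E') * Nat.card E * Nat.card R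
      = Nat.card (W ⧸ E') * Nat.card R * Nat.card E := by ring
    _ ≤ Nat.card K * Nat.card E := Nat.mul_le_mul_right _ h1

/-- The image of the commutator map with a fixed element. -/
theorem card_le_card_mul [Finite S] (W K : Subgroup S) (u : S) (E : Subgroup S) (hE : E ≤ W)
    (hK : ∀ w ∈ W, w * u * w⁻¹ * u⁻¹ ∈ K)
    (hfib : ∀ w ∈ W, Commute w u → w ∈ E) : Nat.card W ≤ Nat.card K * Nat.card E := by
  have := card_mul_card_le W K ⊥ u E ⊥ hE bot_le le_rfl hK (fun w hw w' hw' h => by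
    rw [Subgroup.mem_bot, inv_mul_eq_one] at h
    refine hfib _ (mul_mem (inv_mem hw) hw') ?_
    have h1 : w * u * w⁻¹ = w' * u * w'⁻¹ := mul_right_cancel h
    show w⁻¹ * w' * u = u * (w⁻¹ * w')
    calc w⁻¹ * w' * u = w⁻¹ * (w' * u * w'⁻¹) * w' := by simp [mul_assoc]
      _ = w⁻¹ * (w * u * w⁻¹) * w' := by rw [h1]
      _ = u * (w⁻¹ * w') := by simp [mul_assoc])
  simpa using this

end Cfsg.Agent.H91.DihedralFour
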