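import Cfsg.Agent.H91.DihedralFour.Centre

/-!
The case of an elementary abelian `T` of order sixteen: every elementary abelian section of the
2-group has order at most sixteen.
-/

set_option linter.style.haveILetI false
set_option linter.unusedSectionVars false

namespace Cfsg.Agent.H91.DihedralFour

variable {S : Type*} [Group S] [Finite S]

theorem card_inf_mul_relIndex (H K : Subgroup S) :
    Nat.card ↥(H ⊓ K) * H.relIndex K = Nat.card K := by
  have h := Subgroup.card_mul_index (H.subgroupOf K)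
  rw [← Subgroup.inf_subgroupOf_right,
    Nat.card_congr (Subgroup.subgroupOfEquivOfLe (inf_le_right : H ⊓ K ≤ K)).toEquiv] at h
  rw [← Subgroup.inf_relIndex_right H K]
  exact h

/-- The standing hypotheses. -/
structure Data (T B : Subgroup S) : Prop where
  two : IsPGroup 2 S
  card_T : Nat.card T = 16
  comm : ∀ a ∈ T, ∀ b ∈ T, a * b = b * a
  sq : ∀ a ∈ T, a * a = 1
  le : B ≤ T
  card_B : Nat.card B = 4
  cent : ∀ b ∈ B, b ≠ 1 → Subgroup.centralizer ({b} : Set S) ≤ T

variable {T B : Subgroup S}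

theorem Data.small_cent (d : Data T B) {E : Subgroup S} (hE : E ≤ T) {u : S} (hu : u ∉ T)
    (hc : ∀ e ∈ E, e * u = u * e) : Nat.card E ≤ 4 := by
  have h := card_mul_le (X := T) B E d.le hE (fun b hb hbE => by
    by_contra h1
    refine hu (d.cent b hb h1 ?_)
    rw [Subgroup.mem_centralizer_iff]
    rintro y rfl
    exact hc y hbE)
  rw [d.card_B, d.card_T] at h
  omega

theorem Data.card_inf_centralizer (d : Data T B) {u : S} (hu : u ∉ T) :
    Nat.card ↥(T ⊓ Subgroup.centralizer ({u} : Set S)) ≤ 4 :=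
  d.small_cent inf_le_left hu fun e he =>
    ((Subgroup.mem_centralizer_iff.mp he.2) u rfl).symm

theorem Data.exists_hyperplane (d : Data T B) :
    ∃ W : Subgroup S, W ≤ T ∧ Nat.card W = 8 ∧
      ∀ n ∈ Subgroup.normalizer (T : Set S), ∀ w ∈ W, n * w * n⁻¹ ∈ W := by
  haveI : Fact (Nat.Prime 2) := ⟨Nat.prime_two⟩
  haveI := d.two.isNilpotent
  set N := Subgroup.normalizer (T : Set S) with hN
  have hle : ⁅T, N⁆ ≤ T := by
    rw [Subgroup.commutator_le]
    intro t ht n hn
    rw [commutatorElement_def, mul_assoc, mul_assoc]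
    exact mul_mem ht (by
      rw [← mul_assoc]
      exact (Subgroup.mem_normalizer_iff.mp hn _).mp (inv_mem ht))
  have hne : ⁅T, N⁆ ≠ T := by
    intro he
    have h1 : ∀ k, T ≤ Subgroup.lowerCentralSeries (⊤ : Subgroup S) k := by
      intro k
      induction k with
      | zero => simp
      | succ k ih =>
        rw [Subgroup.lowerCentralSeries_succ]
        calc T = ⁅T, N⁆ := he.symm
          _ ≤ _ := Subgroup.commutator_mono ih le_top
    obtain ⟨k, hk⟩ := Subgroup.nilpotent_iff_lowerCentralSeries.mp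
      (inferInstance : Group.IsNilpotent S)
    have := h1 k
    rw [hk, le_bot_iff] at this
    have h16 := d.card_T
    rw [this, Subgroup.card_bot] at h16
    omega
  have hlt : ⁅T, N⁆ < T := lt_of_le_of_ne hle hne
  let C : Subgroup T := (⁅T, N⁆).subgroupOf T
  have hCne : C ≠ ⊤ := by
    intro h
    exact hne (le_antisymm hle (Subgroup.subgroupOf_eq_top.mp h))
  obtain ⟨j, hj⟩ := ((d.two.to_subgroup T).to_subgroup C).exists_card_eq
  have hj3 : j ≤ 3 := by
    by_contra hh
    apply hCne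
    refine Subgroup.eq_top_of_le_card _ ?_
    rw [hj, d.card_T]
    calc (16 : ℕ) = 2 ^ 4 := rfl
      _ ≤ 2 ^ j := Nat.pow_le_pow_right (by norm_num) (by omega)
  obtain ⟨W, hW, hCW⟩ := Sylow.exists_subgroup_card_pow_prime_le (p := 2)
    (m := 3) (by rw [d.card_T]; norm_num) C hj hj3
  refine ⟨W.map T.subtype, Subgroup.map_subtype_le W, ?_, ?_⟩
  · rw [Subgroup.card_map_of_injective T.subtype_injective, hW]; norm_num
  · rintro n hn _ ⟨w, hw, rfl⟩
    have hwT : n * (w : S) * n⁻¹ ∈ T := (Subgroup.mem_normalizer_iff.mp hn _).mp w.2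
    refine ⟨⟨_, hwT⟩, ?_, rfl⟩
    have hc : (⟨(w : S)⁻¹ * (n * (w : S) * n⁻¹), mul_mem (inv_mem w.2) hwT⟩ : T) ∈ W := by
      refine hCW ?_
      rw [Subgroup.mem_subgroupOf]
      show (w : S)⁻¹ * (n * (w : S) * n⁻¹) ∈ ⁅T, N⁆
      have := Subgroup.commutator_mem_commutator (inv_mem w.2) hn
      rw [commutatorElement_def, inv_inv] at this
      simpa [mul_assoc] using this
    have e : (⟨_, hwT⟩ : T) = w * ⟨(w : S)⁻¹ * (n * (w : S) * n⁻¹),
        mul_mem (inv_mem w.2) hwT⟩ := Subtype.ext (mul_inv_cancel_left (w : S) _).symm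
    rw [e]
    exact mul_mem hw hc

theorem Data.le_normalizer (d : Data T B) : T ≤ Subgroup.normalizer (T : Set S) :=
  Subgroup.le_normalizer

theorem Data.card_normalizer_le (d : Data T B) :
    Nat.card ↥(Subgroup.normalizer (T : Set S)) ≤ 64 := by
  haveI : Fact (Nat.Prime 2) := ⟨Nat.prime_two⟩
  set N := Subgroup.normalizer (T : Set S) with hN
  obtain ⟨W, hWT, hW8, hWinv⟩ := d.exists_hyperplane
  obtain ⟨b, hbB, hbW, hb1⟩ : ∃ b, b ∈ B ∧ b ∈ W ∧ b ≠ 1 := by
    by_contra h
    have := card_mul_le (X := T) B W d.le hWT (fun b hb hbW => by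
      by_contra h1; exact h ⟨b, hb, hbW, h1⟩)
    rw [d.card_B, hW8, d.card_T] at this
    omega
  have hrel : T.relIndex N ≤ 7 := by
    let o : N → {w : W // w ≠ 1} := fun n => ⟨⟨(n : S) * b * (n : S)⁻¹, hWinv n n.2 b hbW⟩,
      fun h => hb1 (by
        have h' : (n : S) * b * (n : S)⁻¹ = 1 := congrArg Subtype.val h
        exact conj_eq_one_iff.mp h')⟩
    let φ : N ⧸ T.subgroupOf N → {w : W // w ≠ 1} := fun q => o q.out
    have hφ : Function.Injective φ := by
      intro q q' h
      rw [← QuotientGroup.out_eq' q, ← QuotientGroup.out_eq' q', QuotientGroup.eq,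
        Subgroup.mem_subgroupOf]
      have h' : (q.out : S) * b * (q.out : S)⁻¹ = (q'.out : S) * b * (q'.out : S)⁻¹ :=
        congrArg (fun w : {w : W // w ≠ 1} => ((w : W) : S)) h
      refine d.cent b hbB hb1 ?_
      rw [Subgroup.mem_centralizer_iff]
      rintro y rfl
      show y * ((q.out : S)⁻¹ * q'.out) = (q.out : S)⁻¹ * q'.out * y
      calc y * ((q.out : S)⁻¹ * q'.out)
          = (q.out : S)⁻¹ * ((q.out : S) * y * (q.out : S)⁻¹) * q'.out := by simp [mul_assoc]
        _ = (q.out : S)⁻¹ * ((q'.out : S) * y * (q'.out : S)⁻¹) * q'.out := by rw [h']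
        _ = _ := by simp [mul_assoc]
    have h1 := Nat.card_le_card_of_injective φ hφ
    have h2 : Nat.card {w : W // w ≠ 1} = 7 := by
      classical
      haveI := Fintype.ofFinite W
      rw [Nat.card_eq_fintype_card, Fintype.card_subtype_compl, Fintype.card_subtype_eq,
        ← Nat.card_eq_fintype_card, hW8]
    exact h1.trans h2.le
  have hc := card_inf_mul_relIndex T N
  rw [inf_eq_left.mpr d.le_normalizer, d.card_T] at hc
  obtain ⟨k, hk⟩ := (d.two.to_subgroup N).exists_card_eq
  have hk7 : k < 7 := by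
    by_contra hh
    have : 2 ^ 7 ≤ Nat.card N := by
      rw [hk]; exact Nat.pow_le_pow_right (by norm_num) (by omega)
    omega
  rw [hk]
  calc 2 ^ k ≤ 2 ^ 6 := Nat.pow_le_pow_right (by norm_num) (by omega)
    _ = 64 := rfl

theorem Data.relIndex_le_four (d : Data T B) :
    T.relIndex (Subgroup.normalizer (T : Set S)) ≤ 4 := by
  have hc := card_inf_mul_relIndex T (Subgroup.normalizer (T : Set S))
  rw [inf_eq_left.mpr d.le_normalizer, d.card_T] at hc
  have := d.card_normalizer_le
  omega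

/-- A subgroup of the normalizer of `T`, not inside `T`, with commutators inside `K`. -/
theorem Data.card_le_of_le_normalizer (d : Data T B) {P K : Subgroup S}
    (hP : P ≤ Subgroup.normalizer (T : Set S)) (hPT : ¬ P ≤ T)
    (hK : ∀ a ∈ P, ∀ b ∈ P, a * b * a⁻¹ * b⁻¹ ∈ K) : Nat.card P ≤ 16 * Nat.card K := by
  obtain ⟨u, huP, huT⟩ := SetLike.not_le_iff_exists.mp hPT
  have h1 := card_le_card_mul (T ⊓ P) K u ((T ⊓ P) ⊓ Subgroup.centralizer ({u} : Set S))
    inf_le_left (fun w hw => hK w hw.2 u huP)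
    (fun w hw h => ⟨hw, Subgroup.mem_centralizer_iff.mpr (by rintro y rfl; exact h.eq.symm)⟩)
  have h2 : Nat.card ↥((T ⊓ P) ⊓ Subgroup.centralizer ({u} : Set S)) ≤ 4 :=
    le_trans (Subgroup.card_le_of_le (inf_le_inf_right _ inf_le_left))
      (d.card_inf_centralizer huT)
  have h3 := card_inf_mul_relIndex T P
  have h4 : T.relIndex P ≤ 4 := by
    refine le_trans ?_ d.relIndex_le_four
    exact Subgroup.relIndex_le_of_le_right hP (Subgroup.index_ne_zero_of_finite)
  calc Nat.card P = Nat.card ↥(T ⊓ P) * T.relIndex P := h3.symm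
    _ ≤ Nat.card K * 4 * 4 :=
      Nat.mul_le_mul (h1.trans (Nat.mul_le_mul_left _ h2)) h4
    _ = 16 * Nat.card K := by ring

end Cfsg.Agent.H91.DihedralFour
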