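import Cfsg.Agent.H91.DihedralFour.Sixteen

/-!
When `T` is not normal: two conjugates `T`, `T'` generate the normalizer, which has index two.
-/

set_option linter.style.haveILetI false
set_option linter.unusedVariables false
set_option linter.unusedSectionVars false

namespace Cfsg.Agent.H91.DihedralFour

variable {S : Type*} [Group S] [Finite S]

/-- Two conjugates `T`, `T'` generating the normalizer `N` of `T`. -/
structure Swap (T B T' N : Subgroup S) : Prop where
  data : Data T B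
  hN : N = Subgroup.normalizer (T : Set S)
  le' : T' ≤ N
  card' : Nat.card T' = 16
  comm' : ∀ a ∈ T', ∀ b ∈ T', a * b = b * a
  sq' : ∀ a ∈ T', a * a = 1
  ne : T' ≠ T
  norm' : N ≤ Subgroup.normalizer (T' : Set S)

variable {T B T' N : Subgroup S}

theorem Swap.le (h : Swap T B T' N) : T ≤ N := h.hN ▸ Subgroup.le_normalizer

theorem Swap.exists_outside (h : Swap T B T' N) : ∃ u ∈ T', u ∉ T :=
  SetLike.not_le_iff_exists.mp fun hle => h.ne (Subgroup.eq_of_le_of_card_ge hle
    (by rw [h.card', h.data.card_T]))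

theorem Swap.card_inf (h : Swap T B T' N) : Nat.card ↥(T ⊓ T') ≤ 4 := by
  obtain ⟨u, hu', huT⟩ := h.exists_outside
  exact h.data.small_cent inf_le_left huT fun e he => h.comm' e he.2 u hu'

theorem Swap.card_inf_eq (h : Swap T B T' N) :
    Nat.card ↥(T ⊓ T') = 4 ∧ T ⊔ T' = N := by
  have hX : T ⊔ T' ≤ N := sup_le h.le h.le'
  have h1 := card_inf_mul_relIndex T T'
  rw [h.card'] at h1
  have h2 := card_inf_mul_relIndex T (T ⊔ T')
  rw [inf_eq_left.mpr (le_sup_left : T ≤ T ⊔ T'), h.data.card_T] at h2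
  have h3 : T.relIndex T' ≤ T.relIndex (T ⊔ T') :=
    Subgroup.relIndex_le_of_le_right le_sup_right Subgroup.index_ne_zero_of_finite
  have h4 : Nat.card ↥(T ⊔ T') ≤ 64 := by
    refine le_trans (Subgroup.card_le_of_le hX) ?_
    rw [h.hN]; exact h.data.card_normalizer_le
  have h5 := h.card_inf
  have h6 : 4 ≤ T.relIndex T' := by
    by_contra hlt
    have : Nat.card ↥(T ⊓ T') * T.relIndex T' ≤ 4 * 3 := Nat.mul_le_mul h5 (by omega)
    omega
  have h7 : T.relIndex T' = 4 := by omega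
  rw [h7] at h1
  refine ⟨by omega, Subgroup.eq_of_le_of_card_ge hX ?_⟩
  have h8 : Nat.card N ≤ 64 := by rw [h.hN]; exact h.data.card_normalizer_le
  omega

theorem Swap.card_eq (h : Swap T B T' N) : Nat.card N = 64 := by
  obtain ⟨h1, h2⟩ := h.card_inf_eq
  have e1 := card_inf_mul_relIndex T T'
  rw [h.card', h1] at e1
  have e2 := card_inf_mul_relIndex T N
  rw [inf_eq_left.mpr h.le, h.data.card_T] at e2
  have e3 : T.relIndex T' ≤ T.relIndex N :=
    Subgroup.relIndex_le_of_le_right h.le' Subgroup.index_ne_zero_of_finite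
  have e4 : Nat.card N ≤ 64 := by rw [h.hN]; exact h.data.card_normalizer_le
  omega

theorem Swap.decompose (h : Swap T B T' N) {y : S} (hy : y ∈ N) :
    ∃ t ∈ T, ∃ u ∈ T', y = t * u := by
  rw [← h.card_inf_eq.2, ← SetLike.mem_coe,
    Subgroup.coe_mul_of_right_le_normalizer_left T T' (by rw [← h.hN]; exact h.le')] at hy
  obtain ⟨t, ht, u, hu, rfl⟩ := hy
  exact ⟨t, ht, u, hu, rfl⟩

/-- An element of `T` centralized by an element of `T'` outside `T` lies in both. -/
theorem Swap.mem_of_commute (h : Swap T B T' N) {t u : S} (ht : t ∈ T) (hu : u ∈ T')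
    (huT : u ∉ T) (hc : t * u = u * t) : t ∈ T' := by
  have hle : T ⊓ T' ≤ T ⊓ Subgroup.centralizer ({u} : Set S) := fun e he =>
    ⟨he.1, Subgroup.mem_centralizer_iff.mpr (by rintro y rfl; exact (h.comm' e he.2 y hu).symm)⟩
  have heq := Subgroup.eq_of_le_of_card_ge hle
    ((h.data.card_inf_centralizer huT).trans h.card_inf_eq.1.ge)
  have : t ∈ T ⊓ Subgroup.centralizer ({u} : Set S) :=
    ⟨ht, Subgroup.mem_centralizer_iff.mpr (by rintro y rfl; exact hc.symm)⟩
  rw [← heq] at this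
  exact this.2

theorem Swap.mem_of_commute_left (h : Swap T B T' N) {a y : S} (ha : a ∈ T) (ha' : a ∉ T')
    (hy : y ∈ N) (hc : a * y = y * a) : y ∈ T := by
  obtain ⟨t, ht, u, hu, rfl⟩ := h.decompose hy
  refine mul_mem ht ?_
  by_contra huT
  refine ha' (h.mem_of_commute ha hu huT ?_)
  have h1 : t * (a * u) = t * (u * a) := by
    rw [← mul_assoc, ← mul_assoc, ← h.data.comm a ha t ht, mul_assoc a t u]
    exact hc
  exact mul_left_cancel h1

theorem Swap.mem_or (h : Swap T B T' N) {y : S} (hy : y ∈ N) (h2 : y * y = 1) :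
    y ∈ T ∨ y ∈ T' := by
  obtain ⟨t, ht, u, hu, rfl⟩ := h.decompose hy
  by_cases huT : u ∈ T
  · exact Or.inl (mul_mem ht huT)
  · refine Or.inr (mul_mem (h.mem_of_commute ht hu huT ?_) hu)
    have e1 : t * u = (t * u)⁻¹ := eq_inv_of_mul_eq_one_right h2
    rw [mul_inv_rev, inv_eq_of_mul_eq_one_right (h.data.sq t ht),
      inv_eq_of_mul_eq_one_right (h.sq' u hu)] at e1
    exact e1

/-- A subgroup of exponent two inside `N` lies in `T` or in `T'`. -/
theorem Swap.le_or (h : Swap T B T' N) {E : Subgroup S} (hE : E ≤ N)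
    (hsq : ∀ e ∈ E, e * e = 1) : E ≤ T ∨ E ≤ T' := by
  by_contra hh
  rw [not_or, SetLike.not_le_iff_exists, SetLike.not_le_iff_exists] at hh
  obtain ⟨⟨x, hx, hxT⟩, y, hy, hyT⟩ := hh
  have hx' := (h.mem_or (hE hx) (hsq x hx)).resolve_left hxT
  have hy' := (h.mem_or (hE hy) (hsq y hy)).resolve_right hyT
  rcases h.mem_or (hE (mul_mem hx hy)) (hsq _ (mul_mem hx hy)) with h1 | h1
  · exact hxT ((mul_mem_cancel_right hy').mp h1)
  · exact hyT ((mul_mem_cancel_left hx').mp h1)

theorem Swap.eq_or (h : Swap T B T' N) {E : Subgroup S} (hE : E ≤ N)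
    (hsq : ∀ e ∈ E, e * e = 1) (h16 : Nat.card E = 16) : E = T ∨ E = T' :=
  (h.le_or hE hsq).imp (fun hle => Subgroup.eq_of_le_of_card_ge hle (by rw [h16, h.data.card_T]))
    (fun hle => Subgroup.eq_of_le_of_card_ge hle (by rw [h16, h.card']))

theorem conjSub_mul (g k : S) (X : Subgroup S) :
    conjSub g (conjSub k X) = conjSub (g * k) X := by
  ext y
  simp [mem_conjSub, mul_assoc]

theorem conjSub_eq_self {g : S} {X : Subgroup S} :
    conjSub g X = X ↔ g ∈ Subgroup.normalizer (X : Set S) := by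
  rw [Subgroup.mem_normalizer_iff]
  constructor
  · intro e k
    conv_rhs => rw [← e, mem_conjSub]
    simp [mul_assoc]
  · intro e
    ext y
    rw [mem_conjSub, e (g⁻¹ * y * g)]
    simp [mul_assoc]

theorem card_le_two_mul {X N : Subgroup S}
    (h : ∀ x ∈ X, ∀ y ∈ X, x ∉ N → y ∉ N → x⁻¹ * y ∈ N) :
    Nat.card X ≤ 2 * Nat.card ↥(X ⊓ N) := by
  classical
  by_cases hle : X ≤ N
  · rw [inf_eq_left.mpr hle]; omega
  obtain ⟨s, hs, hsN⟩ := SetLike.not_le_iff_exists.mp hle
  let f : X → Bool × ↥(X ⊓ N) := fun x =>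
    if hx : (x : S) ∈ N then (true, ⟨x, x.2, hx⟩)
    else (false, ⟨s⁻¹ * x, X.mul_mem (X.inv_mem hs) x.2, h s hs x x.2 hsN hx⟩)
  have hf : Function.Injective f := by
    intro x y e
    simp only [f] at e
    apply Subtype.ext
    split_ifs at e with h1 h2 h2
    · exact congrArg (fun p : Bool × ↥(X ⊓ N) => ((p.2 : ↥(X ⊓ N)) : S)) e
    · exact absurd (congrArg Prod.fst e) Bool.noConfusion
    · exact absurd (congrArg Prod.fst e) Bool.noConfusion
    · exact mul_left_cancel (congrArg (fun p : Bool × ↥(X ⊓ N) => ((p.2 : ↥(X ⊓ N)) : S)) e)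
  have := Nat.card_le_card_of_injective f hf
  rwa [Nat.card_prod, Nat.card_eq_fintype_card (α := Bool), Fintype.card_bool] at this

theorem Data.exists_swap {T B : Subgroup S} (d : Data T B)
    (hne : Subgroup.normalizer (T : Set S) ≠ ⊤) :
    ∃ g, Swap T B (conjSub g T) (Subgroup.normalizer (T : Set S)) ∧
      g ∈ Subgroup.normalizer (Subgroup.normalizer (T : Set S) : Set S) ∧
      g ∉ Subgroup.normalizer (T : Set S) := by
  haveI : Fact (Nat.Prime 2) := ⟨Nat.prime_two⟩
  obtain ⟨g, hg, hgN, -⟩ := exists_sq_mem d.two hne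
  have hiff := Subgroup.mem_normalizer_iff.mp hg
  have hpull : ∀ y ∈ Subgroup.normalizer (T : Set S),
      g⁻¹ * y * g ∈ Subgroup.normalizer (T : Set S) := fun y hy => by
    rw [hiff]; simpa [mul_assoc] using hy
  refine ⟨g, ⟨d, rfl, ?_, ?_, ?_, ?_, ?_, ?_⟩, hg, hgN⟩
  · rintro _ ⟨t, ht, rfl⟩
    exact (hiff t).mp (Subgroup.le_normalizer ht)
  · rw [card_conjSub, d.card_T]
  · rintro _ ⟨a, ha, rfl⟩ _ ⟨b, hb, rfl⟩
    rw [← map_mul, d.comm a ha b hb, map_mul]
  · rintro _ ⟨a, ha, rfl⟩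
    rw [← map_mul, d.sq a ha, map_one]
  · intro h
    exact hgN (conjSub_eq_self.mp h)
  · intro y hy
    rw [← conjSub_eq_self, conjSub_mul]
    have h1 : conjSub (g⁻¹ * y * g) T = T := conjSub_eq_self.mpr (hpull y hy)
    calc conjSub (y * g) T = conjSub (g * (g⁻¹ * y * g)) T := by simp [mul_assoc]
      _ = conjSub g (conjSub (g⁻¹ * y * g) T) := (conjSub_mul _ _ _).symm
      _ = conjSub g T := by rw [h1]

end Cfsg.Agent.H91.DihedralFour
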